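import Cfsg.Agent.H81.DP.BtTD4
import Cfsg.Agent.KFacts.RgdCharP
import Cfsg.Agent.Nodes.NormX
import Cfsg.Agent.Schreier.ThreeD4
import Cfsg.Agent.S2407

/-!
# `³D₄(q)`, `q` odd: the normaliser of a radical subgroup contains two commuting involutions (helper565, S5719)

* `two_inv` : an abelian group of exponent dividing `n` and order `n * m`, `m` even, has two involutions;
* `radical_td4` : a radical `p`-subgroup of `³D₄(q)` is the unipotent radical of a parabolic subgroup;
* `bt_td4_two` : its normaliser contains two commuting involutions.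
-/

set_option autoImplicit false
set_option linter.unusedSectionVars false

namespace Cfsg.Agent.H565.RY

open Subgroup

section Abelian

variable {C : Type*} [CommGroup C] [Finite C]

theorem card_ker_pow (h : ∀ x y : C, orderOf x = 2 → orderOf y = 2 → x = y) (k : ℕ) :
    Nat.card (powMonoidHom (2 ^ k) : C →* C).ker ≤ 2 ^ k := by
  induction k with
  | zero =>
    have h1 : (powMonoidHom (2 ^ 0) : C →* C).ker = ⊥ := by
      rw [eq_bot_iff]
      intro x hx
      rw [MonoidHom.mem_ker, powMonoidHom_apply, pow_zero, pow_one] at hx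
      exact hx
    rw [h1, Subgroup.card_bot]
    norm_num
  | succ k ih =>
    -- the map `x ↦ x ^ 2` from `ker (2^(k+1))` to `ker (2^k)`, whose fibres have at most two elements
    have hc : Nat.card (powMonoidHom 2 : C →* C).ker ≤ 2 := by
      by_contra hcon
      push Not at hcon
      obtain ⟨a, b, c, hab, hac, hbc⟩ : ∃ a b c : (powMonoidHom 2 : C →* C).ker, a ≠ b ∧ a ≠ c ∧ b ≠ c := by
        have := Fintype.ofFinite (powMonoidHom 2 : C →* C).ker
        rw [Nat.card_eq_fintype_card] at hcon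
        exact Fintype.two_lt_card_iff.1 hcon
      have hord : ∀ x : (powMonoidHom 2 : C →* C).ker, x ≠ 1 → orderOf (x : C) = 2 := by
        intro x hx
        refine orderOf_eq_prime ?_ fun h1 => hx (Subtype.ext h1)
        have := x.2
        rwa [MonoidHom.mem_ker, powMonoidHom_apply] at this
      by_cases ha : a = 1
      · exact hbc (Subtype.ext (h _ _ (hord b fun h1 => hab (ha.trans h1.symm))
          (hord c fun h1 => hac (ha.trans h1.symm))))
      · by_cases hb : b = 1
        · exact hac (Subtype.ext (h _ _ (hord a ha) (hord c fun h1 => hbc (hb.trans h1.symm))))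
        · exact hab (Subtype.ext (h _ _ (hord a ha) (hord b hb)))
    let f : (powMonoidHom (2 ^ (k + 1)) : C →* C).ker →* (powMonoidHom (2 ^ k) : C →* C).ker :=
      ((powMonoidHom 2 : C →* C).comp (powMonoidHom (2 ^ (k + 1)) : C →* C).ker.subtype).codRestrict _ (by
        intro x
        have := x.2
        rw [MonoidHom.mem_ker, powMonoidHom_apply] at this
        rw [MonoidHom.mem_ker, powMonoidHom_apply, MonoidHom.comp_apply, powMonoidHom_apply, ← pow_mul, ← pow_succ']
        exact this)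
    have h2 : Nat.card f.ker ≤ 2 := by
      refine le_trans (Nat.card_le_card_of_injective (fun x : f.ker => (⟨(x.1 : C), ?_⟩ : (powMonoidHom 2 : C →* C).ker)) ?_) hc
      · have := x.2
        rw [MonoidHom.mem_ker] at this
        have h3 := congrArg Subtype.val this
        exact h3
      · intro x y hxy
        have h3 := congrArg Subtype.val hxy
        exact Subtype.ext (Subtype.ext h3)
    have h3 := Subgroup.card_mul_index f.ker
    rw [Subgroup.index_ker] at h3
    have h4 : Nat.card f.range ≤ Nat.card (powMonoidHom (2 ^ k) : C →* C).ker := Subgroup.card_le_card_group _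
    rw [← h3]
    refine le_trans (Nat.mul_le_mul h2 (h4.trans ih)) (le_of_eq ?_)
    rw [pow_succ']

/-- an abelian group of exponent dividing `n` and order `n * m`, `m` even, has two involutions -/
theorem two_inv {n m : ℕ} (hn : 0 < n) (hm : Even m) (hexp : ∀ x : C, x ^ n = 1) (hcard : Nat.card C = n * m) :
    ∃ x y : C, orderOf x = 2 ∧ orderOf y = 2 ∧ x ≠ y := by
  by_contra hcon
  push Not at hcon
  have : Fact (Nat.Prime 2) := ⟨Nat.prime_two⟩
  have hm0 : m ≠ 0 := by
    rintro rfl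
    have := Nat.card_pos (α := C)
    omega
  obtain ⟨P⟩ : Nonempty (Sylow 2 C) := inferInstance
  have h1 : Nat.card P = 2 ^ (n * m).factorization 2 := by rw [P.card_eq_multiplicity, hcard]
  have h2 : (P : Subgroup C) ≤ (powMonoidHom (2 ^ n.factorization 2) : C →* C).ker := by
    intro x hx
    rw [MonoidHom.mem_ker, powMonoidHom_apply]
    obtain ⟨j, hj⟩ := P.2 ⟨x, hx⟩
    have hj' : x ^ 2 ^ j = 1 := congrArg Subtype.val hj
    have h3 : orderOf x ∣ 2 ^ j := orderOf_dvd_of_pow_eq_one hj'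
    obtain ⟨i, -, hi⟩ := (Nat.dvd_prime_pow Nat.prime_two).1 h3
    have h4 : orderOf x ∣ n := orderOf_dvd_of_pow_eq_one (hexp x)
    rw [hi] at h4
    have h5 : i ≤ n.factorization 2 := (Nat.prime_two.pow_dvd_iff_le_factorization hn.ne').1 h4
    rw [← orderOf_dvd_iff_pow_eq_one, hi]
    exact pow_dvd_pow 2 h5
  have h3 : Nat.card P ≤ 2 ^ n.factorization 2 :=
    (Subgroup.card_le_of_le h2).trans (card_ker_pow (fun x y hx hy => hcon x y hx hy) _)
  rw [h1] at h3
  have h4 := (Nat.pow_le_pow_iff_right (by norm_num : 1 < 2)).1 h3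
  rw [Nat.factorization_mul hn.ne' hm0] at h4
  have h5 : 1 ≤ m.factorization 2 := by
    refine (Nat.prime_two.pow_dvd_iff_le_factorization hm0).1 ?_
    rw [pow_one]
    exact hm.two_dvd
  simp only [Finsupp.coe_add, Pi.add_apply] at h4
  omega

end Abelian

section TD4

open CoxeterSystem Cfsg.Agent.ChevalleyStructure.CoxeterGeom Cfsg.Agent.Tits.Roots Cfsg.Agent.Tits.Core
  Cfsg.Agent.Tits.Exchange Cfsg.Agent.Nodes.Reps Cfsg.Agent.Nodes.BNOf Cfsg.Agent.Nodes.StabComb
  Cfsg.Agent.Nodes.Bruhat Cfsg.Agent.Nodes.OppDec Cfsg.Agent.Nodes.LeviDec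
open Cfsg.Lie Cfsg.Agent.ChevalleyStructure
open Cfsg.Agent.Nodes.RGDTwD4
open Cfsg.Agent.H866.D4Wf.Frame (cs rgd')

theorem eq_of_inf_normalizer_le {Y : Type*} [Group Y] [Finite Y] {p : ℕ} [Fact p.Prime] {Q V : Subgroup Y}
    (hQV : Q ≤ V) (hV : IsPGroup p V) (h1 : V ⊓ normalizer (Q : Set Y) ≤ Q) : V = Q := by
  by_contra hne
  have hnil : Group.IsNilpotent V := hV.isNilpotent
  have h2 : Q.subgroupOf V < ⊤ := by
    rw [lt_top_iff_ne_top]
    intro h3
    exact hne (le_antisymm (subgroupOf_eq_top.1 h3) hQV)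
  have h3 := Group.normalizerCondition_of_isNilpotent (G := V) _ h2
  obtain ⟨x, hx, hx'⟩ := SetLike.exists_of_lt h3
  apply hx'
  rw [mem_subgroupOf]
  apply h1
  rw [mem_inf]
  refine ⟨x.2, ?_⟩
  rw [mem_normalizer_iff] at hx ⊢
  intro y
  constructor
  · intro hy
    exact (hx ⟨y, hQV hy⟩).1 hy
  · intro hy
    have hy' : y ∈ V := by
      have := V.mul_mem (V.mul_mem (V.inv_mem x.2) (hQV hy)) x.2
      have e : (x : Y)⁻¹ * (x * y * (x : Y)⁻¹) * x = y := by group
      rwa [e] at this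
    exact (hx ⟨y, hy'⟩).2 hy

/-- **A radical subgroup of `³D₄(q)` is conjugate to a unipotent radical.** -/
theorem radical_td4 {K : Type} [Field K] [Fintype K] {q r : ℕ} [hr : Fact r.Prime] [CharP K r] (hq : IsPrimePow q)
    (hK : Fintype.card K = q ^ 3) {V : Subgroup ↥(twistedD4 K q)} (hV : IsPGroup r ↥V) (hne : V ≠ ⊥)
    (hrad : ∀ P : Subgroup ↥(twistedD4 K q), IsPGroup r P → P ≤ normalizer (V : Set ↥(twistedD4 K q)) →
      normalizer (V : Set ↥(twistedD4 K q)) ≤ normalizer (P : Set ↥(twistedD4 K q)) → P ≤ V) :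
    ∃ g : ↥(twistedD4 K q), cj g (T K q) ≤ normalizer (V : Set ↥(twistedD4 K q)) := by
  obtain ⟨φ, hφ⟩ := D4Fixed.exists_frob hq hK
  have hfin : Finite CoxeterMatrix.G₂.Group := Cfsg.Agent.Nodes.RGDFold.finite_W (hp := Cfsg.Agent.Nodes.RGDTwD4.hp) cs
    isCartan foldData
  have R := rgd' hK hφ r
  have hG1 : Nodes.RGDLib.G1 cs isCartan (X φ q) = ⊤ := G1_eq_top cs hK hφ
  have hF := KFacts.RgdFiltTwAll.filt_fold cs isCartan foldData (foldGrp hφ (D4Fixed.twisted_le_fix hK hφ)) r
  obtain ⟨g, J, hJ, h1, h2⟩ := KFacts.RgdFilt.borel_tits_of_filt hF hG1 hV hne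
  have hVJ : IsPGroup r (cj g (VJ cs isCartan (X φ q) J)) := by
    unfold cj
    exact (KFacts.RgdCharP.isPGroup_VJ R J).map _
  have h3 : cj g (PJ cs isCartan (T K q) (X φ q) J) ≤
      normalizer ((cj g (VJ cs isCartan (X φ q) J) : Subgroup ↥(twistedD4 K q)) : Set ↥(twistedD4 K q)) := by
    rw [Nodes.NormX.normalizer_cj]
    exact cj_mono g (PJ_le_normalizer_VJ R J)
  have h4 : cj g (VJ cs isCartan (X φ q) J) = V := by
    refine eq_of_inf_normalizer_le h1 hVJ ?_
    refine hrad _ (hVJ.to_le inf_le_left) inf_le_right ?_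
    intro x hx
    have hx1 := h3 (h2 hx)
    rw [mem_normalizer_iff] at hx1 ⊢
    intro y
    rw [mem_inf, mem_inf]
    refine and_congr (hx1 y) ?_
    constructor
    · intro hy
      exact mul_mem (mul_mem hx hy) (inv_mem hx)
    · intro hy
      have := mul_mem (mul_mem (inv_mem hx) hy) hx
      have e : x⁻¹ * (x * y * x⁻¹) * x = y := by group
      rwa [e] at this
  refine ⟨g, ?_⟩
  rw [h4] at h3
  refine le_trans (cj_mono g ?_) h3
  exact le_trans (le_trans le_sup_left le_sup_left) le_rfl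

/-- **The normaliser of a radical subgroup of `³D₄(q)`, `q` odd, contains two commuting involutions.** -/
theorem bt_td4_two {K : Type} [Field K] [Fintype K] {q r : ℕ} [hr : Fact r.Prime] [CharP K r] (hq : IsPrimePow q)
    (hodd : Odd q) (hK : Fintype.card K = q ^ 3) {V : Subgroup ↥(twistedD4 K q)} (hV : IsPGroup r ↥V) (hne : V ≠ ⊥)
    (hrad : ∀ P : Subgroup ↥(twistedD4 K q), IsPGroup r P → P ≤ normalizer (V : Set ↥(twistedD4 K q)) →
      normalizer (V : Set ↥(twistedD4 K q)) ≤ normalizer (P : Set ↥(twistedD4 K q)) → P ≤ V) :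
    ∃ s t : ↥(twistedD4 K q), orderOf s = 2 ∧ orderOf t = 2 ∧ s ≠ t ∧ s * t = t * s ∧
      s ∈ normalizer (V : Set ↥(twistedD4 K q)) ∧ t ∈ normalizer (V : Set ↥(twistedD4 K q)) := by
  obtain ⟨g, hg⟩ := radical_td4 hq hK hV hne hrad
  have hcomm : ∀ a b : ↥(T K q), a * b = b * a := by
    rintro ⟨⟨a, ha'⟩, ha⟩ ⟨⟨b, hb'⟩, hb⟩
    exact Subtype.ext (Subtype.ext (S2407.diag_comm ha.1 hb.1))
  let _ : CommGroup ↥(T K q) := { (inferInstance : Group ↥(T K q)) with mul_comm := hcomm }
  have hq1 := hq.one_lt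
  have hexp : ∀ x : ↥(T K q), x ^ (q ^ 3 - 1) = 1 := by
    rintro ⟨⟨a, ha'⟩, ha⟩
    have := Schreier.ThreeD4.pow_card_sub_one (K := K) ha.1
    rw [Nat.card_eq_fintype_card, hK] at this
    exact Subtype.ext (Subtype.ext this)
  have h3 : 1 < q ^ 3 := Nat.one_lt_pow (by norm_num) hq1
  obtain ⟨x, y, hx, hy, hxy⟩ := two_inv (C := ↥(T K q)) (n := q ^ 3 - 1) (m := q - 1) (by omega)
    (Nat.Odd.sub_odd hodd odd_one) hexp (H69.OutTwD4.card_T hq hK)
  refine ⟨g * x * g⁻¹, g * y * g⁻¹, ?_, ?_, ?_, ?_, hg ?_, hg ?_⟩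
  · have := orderOf_injective (MulAut.conj g).toMonoidHom (MulAut.conj g).injective (x : ↥(twistedD4 K q))
    rw [Subgroup.orderOf_coe, hx] at this
    exact this
  · have := orderOf_injective (MulAut.conj g).toMonoidHom (MulAut.conj g).injective (y : ↥(twistedD4 K q))
    rw [Subgroup.orderOf_coe, hy] at this
    exact this
  · intro h
    apply hxy
    exact Subtype.ext (mul_left_cancel (mul_right_cancel h))
  · have h4 : (x : ↥(twistedD4 K q)) * y = y * x := congrArg Subtype.val (hcomm x y)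
    calc g * x * g⁻¹ * (g * y * g⁻¹) = g * (x * y) * g⁻¹ := by group
      _ = g * (y * x) * g⁻¹ := by rw [h4]
      _ = _ := by group
  · exact ⟨x, x.2, rfl⟩
  · exact ⟨y, y.2, rfl⟩

end TD4

end Cfsg.Agent.H565.RY
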