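import Cfsg.Agent.LThreeModel.SU3
import Cfsg.Agent.LThreeExt.SL3
import Cfsg.Agent.GenExc.Main
import Cfsg.Agent.TypeLFive.SLTwoCore

/-!
# `SL(2,q³)` normal in the centralizer of an involution: the rows `PSL₂`, `PSL₃`, `PSU₃` (helper565, S5719)

* `key`, `key2` : a normal `SL(2,L)` of the centralizer of an involution is the standard `SL(2,F)`;
* `row_psl2`, `row_psl3`, `row_psu3` : the three rows.
-/

set_option autoImplicit false
set_option linter.unusedSectionVars false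

namespace Cfsg.Agent.H565.RY

open Subgroup Cfsg
open Matrix (SpecialLinearGroup)
open scoped commutatorElement

/-! ### a commuting involution -/

theorem exists_comm_inv {G : Type*} [Group G] [Finite G] {z a b : G} (hz : z * z = 1) (hz1 : z ≠ 1)
    (ha : a * a = 1) (ha1 : a ≠ 1) (hb : b * b = 1) (hb1 : b ≠ 1) (hab : a ≠ b) (hc : a * b = b * a) :
    ∃ v, v * v = 1 ∧ v ≠ 1 ∧ z ≠ v ∧ z * v = v * z := by
  have hzi : z⁻¹ = z := inv_eq_of_mul_eq_one_left hz
  have hai : a⁻¹ = a := inv_eq_of_mul_eq_one_left ha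
  have hn : 0 < orderOf (z * a) := orderOf_pos _
  have hinv : z * (z * a) * z⁻¹ = (z * a)⁻¹ := by
    rw [mul_inv_rev, hzi, hai, ← mul_assoc, hz, one_mul]
  rcases Nat.even_or_odd' (orderOf (z * a)) with ⟨m, hm | hm⟩
  · have hm0 : 0 < m := by omega
    have h1 : (z * a) ^ m ≠ 1 := by
      intro h
      have := orderOf_dvd_of_pow_eq_one h
      have := Nat.le_of_dvd hm0 this
      omega
    have h2 : (z * a) ^ m * (z * a) ^ m = 1 := by
      rw [← pow_add, ← two_mul, ← hm, pow_orderOf_eq_one]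
    have h3 : z * (z * a) ^ m * z⁻¹ = ((z * a) ^ m)⁻¹ := by
      rw [← inv_pow, ← hinv, conj_pow]
    have h4 : ((z * a) ^ m)⁻¹ = (z * a) ^ m := inv_eq_of_mul_eq_one_left h2
    have h5 : z * (z * a) ^ m = (z * a) ^ m * z := by
      rw [h4] at h3
      rwa [mul_inv_eq_iff_eq_mul] at h3
    refine ⟨(z * a) ^ m, h2, h1, ?_, h5⟩
    intro h6
    have h7 : z * (z * a) = z * a * z := by
      have : Commute ((z * a) ^ m) (z * a) := (Commute.refl (z * a)).pow_left m
      rw [← h6] at this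
      exact this
    have h8 : (z * a) ^ 2 = 1 := by
      rw [pow_two]
      calc z * a * (z * a) = z * a * z * a := by group
        _ = z * (z * a) * a := by rw [h7]
        _ = z * z * (a * a) := by group
        _ = 1 := by rw [hz, ha, one_mul]
    have h9 := Nat.le_of_dvd (by norm_num) (orderOf_dvd_of_pow_eq_one h8)
    have h10 : m = 1 := by omega
    rw [h10, pow_one] at h6
    exact ha1 (mul_left_cancel (a := z) (by rw [← h6, mul_one]))
  · -- `z` is conjugate to `a`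
    have h1 : ∀ k : ℕ, a * (a * z) ^ k = (z * a) ^ k * a := by
      intro k
      induction k with
      | zero => simp
      | succ k ih =>
        rw [pow_succ, ← mul_assoc, ih, pow_succ]
        calc (z * a) ^ k * a * (a * z) = (z * a) ^ k * (a * a) * z := by group
          _ = (z * a) ^ k * z * (a * a) := by rw [ha, mul_one, mul_one]
          _ = _ := by group
    have h2 : ((z * a) ^ m)⁻¹ = (a * z) ^ m := by
      rw [← inv_pow, mul_inv_rev, hai, hzi]
    have h3 : (z * a) ^ m * a * ((z * a) ^ m)⁻¹ = a * z * a := by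
      rw [h2, mul_assoc, h1 m, ← mul_assoc, ← pow_add]
      have h4 : (z * a) ^ (m + m) * (z * a) = 1 := by
        rw [← pow_succ, ← two_mul, ← hm, pow_orderOf_eq_one]
      rw [eq_inv_of_mul_eq_one_left h4, mul_inv_rev, hai, hzi]
    set g := a * (z * a) ^ m with hg
    have h4 : g * a * g⁻¹ = z := by
      rw [hg, mul_inv_rev]
      calc a * (z * a) ^ m * a * (((z * a) ^ m)⁻¹ * a⁻¹) = a * ((z * a) ^ m * a * ((z * a) ^ m)⁻¹) * a⁻¹ := by group
        _ = a * (a * z * a) * a⁻¹ := by rw [h3]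
        _ = a * a * z * (a * a⁻¹) := by group
        _ = z := by rw [ha, mul_inv_cancel, one_mul, mul_one]
    refine ⟨g * b * g⁻¹, ?_, ?_, ?_, ?_⟩
    · calc g * b * g⁻¹ * (g * b * g⁻¹) = g * (b * b) * g⁻¹ := by group
        _ = 1 := by rw [hb, mul_one, mul_inv_cancel]
    · intro h
      apply hb1
      calc b = g⁻¹ * (g * b * g⁻¹) * g := by group
        _ = 1 := by rw [h, mul_one, inv_mul_cancel]
    · intro h
      rw [← h4] at h
      exact hab (mul_left_cancel (mul_right_cancel h))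
    · rw [← h4]
      calc g * a * g⁻¹ * (g * b * g⁻¹) = g * (a * b) * g⁻¹ := by group
        _ = g * (b * a) * g⁻¹ := by rw [hc]
        _ = _ := by group

/-! ### normal `SL(2,L)` -/

section Key

variable {F : Type*} [Field F] [Fintype F] {L : Type*} [Field L] [Fintype L]

theorem card_mono {a b : ℕ} (ha : 1 < a) (h : a * (a ^ 2 - 1) = b * (b ^ 2 - 1)) : a = b := by
  have key : ∀ x y : ℕ, 1 < x → x < y → x * (x ^ 2 - 1) < y * (y ^ 2 - 1) := by
    intro x y hx hxy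
    have h1 : x ^ 2 ≤ y ^ 2 := Nat.pow_le_pow_left hxy.le 2
    have h2 : 1 < x ^ 2 := Nat.one_lt_pow (by norm_num) hx
    exact Nat.mul_lt_mul_of_lt_of_le hxy (by omega) (by omega)
  rcases Nat.lt_trichotomy a b with h1 | h1 | h1
  · exact absurd h (key a b ha h1).ne
  · exact h1
  · rcases Nat.lt_or_ge 1 b with h2 | h2
    · exact absurd h.symm (key b a h2 h1).ne
    · exfalso
      have h3 : 1 < a ^ 2 := Nat.one_lt_pow (by norm_num) ha
      have h4 : b * (b ^ 2 - 1) = 0 := by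
        interval_cases b <;> rfl
      rw [h4] at h
      rcases Nat.mul_eq_zero.1 h with h5 | h5 <;> omega

theorem not_comm_sl (hL : 3 < Fintype.card L) :
    ∃ x y : SpecialLinearGroup (Fin 2) L, x * y ≠ y * x := by
  by_contra hcon
  push Not at hcon
  have h1 := TwoFusion.SLTwoFacts.commutator_eq_top (F := L) hL
  have h2 : commutator (SpecialLinearGroup (Fin 2) L) = ⊥ := by
    rw [_root_.commutator_def, eq_bot_iff, Subgroup.commutator_le]
    intro x _ y _
    rw [Subgroup.mem_bot, commutatorElement_eq_one_iff_mul_comm]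
    exact hcon x y
  rw [h2] at h1
  have h3 : Nat.card (SpecialLinearGroup (Fin 2) L) = 1 := by
    rw [← Subgroup.card_top, ← h1, Subgroup.card_bot]
  rw [ClassicalGeometry.PSL2Basic.card_SL2] at h3
  have h4 : 3 ^ 2 < Fintype.card L ^ 2 := Nat.pow_lt_pow_left hL (by norm_num)
  have h5 := Nat.eq_one_of_mul_eq_one_right h3
  omega

/-- **The key lemma**: a normal `SL(2,L)` of `SL(2,F)`. -/
theorem key {S : Type*} [Group S] [Finite S] {M : Subgroup S} (e : M ≃* SpecialLinearGroup (Fin 2) F)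
    (hL : 3 < Fintype.card L) (j : SpecialLinearGroup (Fin 2) L →* S) (hj : Function.Injective j)
    (hnorm : ∀ g ∈ M, ∀ x, g * j x * g⁻¹ ∈ j.range) (hle : j.range ≤ M) : Fintype.card F = Fintype.card L := by
  have h1 : Nat.card j.range = Fintype.card L * (Fintype.card L ^ 2 - 1) := by
    rw [← Nat.card_congr (MonoidHom.ofInjective hj).toEquiv, ClassicalGeometry.PSL2Basic.card_SL2]
  have h2 : Nat.card M = Fintype.card F * (Fintype.card F ^ 2 - 1) := by
    rw [Nat.card_congr e.toEquiv, ClassicalGeometry.PSL2Basic.card_SL2]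
  have h3 : Fintype.card L * (Fintype.card L ^ 2 - 1) ≤ Fintype.card F * (Fintype.card F ^ 2 - 1) := by
    rw [← h1, ← h2]
    exact Subgroup.card_le_of_le hle
  have h4 : 3 < Fintype.card F := by
    by_contra hcon
    push Not at hcon
    have h5 : Fintype.card F ^ 2 ≤ 3 ^ 2 := Nat.pow_le_pow_left hcon 2
    have h6 : 4 ^ 2 ≤ Fintype.card L ^ 2 := Nat.pow_le_pow_left hL 2
    have h7 : Fintype.card F * (Fintype.card F ^ 2 - 1) ≤ 3 * 8 := Nat.mul_le_mul hcon (by omega)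
    have h8 : 4 * 15 ≤ Fintype.card L * (Fintype.card L ^ 2 - 1) := Nat.mul_le_mul hL (by omega)
    omega
  have hn : (j.range.subgroupOf M).Normal := by
    constructor
    rintro ⟨_, hn'⟩ hx g
    obtain ⟨x, rfl⟩ := hx
    exact hnorm g g.2 x
  have hN : ((j.range.subgroupOf M).map e.toMonoidHom).Normal := Subgroup.Normal.map hn _ e.surjective
  rcases TypeLFive.SLTwoCore.normal_cases h4 _ hN with h5 | h5
  · exfalso
    obtain ⟨x, y, hxy⟩ := not_comm_sl (L := L) hL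
    apply hxy
    apply hj
    have h6 : e ⟨j x, hle ⟨x, rfl⟩⟩ ∈ Subgroup.center (SpecialLinearGroup (Fin 2) F) := h5 ⟨_, ⟨x, rfl⟩, rfl⟩
    have h7 := Subgroup.mem_center_iff.1 h6 (e ⟨j y, hle ⟨y, rfl⟩⟩)
    rw [← map_mul, ← map_mul] at h7
    have h8 := congrArg Subtype.val (e.injective h7)
    rw [map_mul, map_mul]
    exact h8.symm
  · have h6 : j.range.subgroupOf M = ⊤ := by
      rw [eq_top_iff]
      intro x _
      have h7 : e x ∈ (j.range.subgroupOf M).map e.toMonoidHom := by rw [h5]; trivial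
      obtain ⟨y, hy, hy'⟩ := h7
      rwa [← e.injective hy']
    have h7 : j.range = M := le_antisymm hle (Subgroup.subgroupOf_eq_top.1 h6)
    rw [h7, h2] at h1
    exact card_mono (by omega) h1

/-- the key lemma with a model of the group -/
theorem key2 {S P : Type*} [Group S] [Finite S] [Group P] (θ : S ≃* P) {M : Subgroup P}
    (e : M ≃* SpecialLinearGroup (Fin 2) F) {z : S} (hM : ∀ g ∈ M, g * θ z = θ z * g)
    (hle : ∀ A : Subgroup P, ⁅A, A⁆ = A → A ≤ centralizer {θ z} → A ≤ M)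
    (hL : 3 < Fintype.card L) (j : SpecialLinearGroup (Fin 2) L →* S) (hj : Function.Injective j)
    (hjz : j (-1) = z) (hJ : ∀ g, g * z = z * g → ∀ x, g * j x * g⁻¹ ∈ j.range) :
    Fintype.card F = Fintype.card L := by
  have : Finite P := Finite.of_equiv S θ.toEquiv
  refine key (j := θ.toMonoidHom.comp j) e hL (θ.injective.comp hj) ?_ ?_
  · intro g hg x
    have h1 := hM g hg
    have h2 : θ.symm g * z = z * θ.symm g := by
      apply θ.injective
      rw [map_mul, map_mul, θ.apply_symm_apply, h1]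
    obtain ⟨y, hy⟩ := hJ _ h2 x
    refine ⟨y, ?_⟩
    change θ (j y) = g * θ (j x) * g⁻¹
    rw [hy, map_mul, map_mul, map_inv, θ.apply_symm_apply]
  · refine hle _ ?_ ?_
    · rw [MonoidHom.range_eq_map, ← map_commutator, ← _root_.commutator_def, TwoFusion.SLTwoFacts.commutator_eq_top hL]
    · rintro _ ⟨x, rfl⟩
      rw [mem_centralizer_singleton_iff]
      change θ (j x) * θ z = θ z * θ (j x)
      rw [← hjz, ← map_mul, ← map_mul, ← map_mul, ← map_mul, mul_neg_one, neg_one_mul]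

end Key

/-! ### arithmetic -/

theorem not_nine_dvd_add (Q : ℕ) : ¬ 9 ∣ Q ^ 2 + Q + 1 := by
  intro h
  have h1 : (Q ^ 2 + Q + 1) % 9 = 0 := Nat.mod_eq_zero_of_dvd h
  have h2 : ∀ r : ℕ, r < 9 → ¬ (r ^ 2 + r + 1) % 9 = 0 := by decide
  apply h2 (Q % 9) (Nat.mod_lt _ (by norm_num))
  rw [← h1]
  simp [Nat.pow_mod, Nat.add_mod]

theorem not_nine_dvd_sub (Q : ℕ) : ¬ 9 ∣ (Q + 1) ^ 2 - (Q + 1) + 1 := by
  have e : (Q + 1) ^ 2 - (Q + 1) + 1 = Q ^ 2 + Q + 1 := by
    have : (Q + 1) ^ 2 = Q ^ 2 + Q + (Q + 1) := by ring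
    omega
  rw [e]
  exact not_nine_dvd_add Q

/-- a prime divisor different from three -/
theorem exists_prime {N : ℕ} (hN : 3 < N) (h9 : ¬ 9 ∣ N) : ∃ p : ℕ, p.Prime ∧ p ≠ 3 ∧ p ∣ N := by
  by_contra hcon
  push Not at hcon
  have h1 : N = 3 ^ N.primeFactorsList.length := by
    refine Nat.eq_prime_pow_of_unique_prime_dvd (by omega) ?_
    intro d hd hdN
    by_contra h
    exact hcon d hd h hdN
  rcases Nat.lt_or_ge N.primeFactorsList.length 2 with h2 | h2
  · have h3 : 3 ^ N.primeFactorsList.length ≤ 3 ^ 1 := Nat.pow_le_pow_right (by norm_num) (by omega)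
    omega
  · apply h9
    rw [h1]
    exact pow_dvd_pow 3 h2

theorem three_of {R : Type*} [CommRing R] [IsDomain R] {x : R} (h : x ^ 6 + x ^ 3 + 1 = 0)
    (h1 : x ^ 12 * (x ^ 2 - 1) * (x ^ 6 - 1) * (x ^ 8 + x ^ 4 + 1) = 0) : (3 : R) = 0 := by
  have h9 : x ^ 9 = 1 := by linear_combination (x ^ 3 - 1) * h
  have h12 : x ^ 12 = 1 → (3 : R) = 0 := by
    intro h2
    have h3 : x ^ 3 = 1 := by linear_combination h2 - x ^ 3 * h9
    have h6 : x ^ 6 = 1 := by linear_combination (x ^ 3 + 1) * h3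
    linear_combination h - h6 - h3
  rcases mul_eq_zero.1 h1 with h2 | h2
  · rcases mul_eq_zero.1 h2 with h3 | h3
    · rcases mul_eq_zero.1 h3 with h4 | h4
      · have h5 : x = 0 := pow_eq_zero_iff (by norm_num) |>.1 h4
        rw [h5] at h
        norm_num at h
      · apply h12
        linear_combination (x ^ 10 + x ^ 8 + x ^ 6 + x ^ 4 + x ^ 2 + 1) * h4
    · apply h12
      linear_combination (x ^ 6 + 1) * h3
  · apply h12
    linear_combination (x ^ 4 - 1) * h2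

theorem three_of' {R : Type*} [CommRing R] [IsDomain R] {x : R} (h : x ^ 6 - x ^ 3 + 1 = 0)
    (h1 : x ^ 12 * (x ^ 2 - 1) * (x ^ 6 - 1) * (x ^ 8 + x ^ 4 + 1) = 0) : (3 : R) = 0 := by
  have h9 : x ^ 9 = -1 := by linear_combination (x ^ 3 + 1) * h
  have h12 : x ^ 12 = 1 → (3 : R) = 0 := by
    intro h2
    have h3 : x ^ 3 = -1 := by linear_combination x ^ 3 * h9 - h2
    have h6 : x ^ 6 = 1 := by linear_combination (x ^ 3 - 1) * h3
    linear_combination h - h6 + h3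
  rcases mul_eq_zero.1 h1 with h2 | h2
  · rcases mul_eq_zero.1 h2 with h3 | h3
    · rcases mul_eq_zero.1 h3 with h4 | h4
      · have h5 : x = 0 := pow_eq_zero_iff (by norm_num) |>.1 h4
        rw [h5] at h
        norm_num at h
      · apply h12
        linear_combination (x ^ 10 + x ^ 8 + x ^ 6 + x ^ 4 + x ^ 2 + 1) * h4
    · apply h12
      linear_combination (x ^ 6 + 1) * h3
  · apply h12
    linear_combination (x ^ 4 - 1) * h2

theorem cast_ord (p q : ℕ) (hq : 1 ≤ q) (h : p ∣ q ^ 12 * (q ^ 2 - 1) * (q ^ 6 - 1) * (q ^ 8 + q ^ 4 + 1)) :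
    (q : ZMod p) ^ 12 * ((q : ZMod p) ^ 2 - 1) * ((q : ZMod p) ^ 6 - 1) * ((q : ZMod p) ^ 8 + (q : ZMod p) ^ 4 + 1) =
      0 := by
  have h1 := (ZMod.natCast_eq_zero_iff _ _).2 h
  push_cast [Nat.cast_sub (Nat.one_le_pow 2 q hq), Nat.cast_sub (Nat.one_le_pow 6 q hq)] at h1
  exact h1

theorem not_dvd_add {p q : ℕ} [hp : Fact p.Prime] (hp3 : p ≠ 3) (hq : 1 ≤ q) (h : p ∣ (q ^ 3) ^ 2 + q ^ 3 + 1) :
    ¬ p ∣ q ^ 12 * (q ^ 2 - 1) * (q ^ 6 - 1) * (q ^ 8 + q ^ 4 + 1) := by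
  intro h1
  have h2 := (ZMod.natCast_eq_zero_iff _ _).2 h
  push_cast at h2
  have h3 := three_of (R := ZMod p) (x := (q : ZMod p)) (by linear_combination h2) (cast_ord p q hq h1)
  have h4 : ((3 : ℕ) : ZMod p) = 0 := by exact_mod_cast h3
  rw [ZMod.natCast_eq_zero_iff] at h4
  exact hp3 ((Nat.prime_dvd_prime_iff_eq hp.1 Nat.prime_three).1 h4)

theorem not_dvd_sub {p q : ℕ} [hp : Fact p.Prime] (hp3 : p ≠ 3) (hq : 1 ≤ q) (h : p ∣ (q ^ 3) ^ 2 - q ^ 3 + 1) :
    ¬ p ∣ q ^ 12 * (q ^ 2 - 1) * (q ^ 6 - 1) * (q ^ 8 + q ^ 4 + 1) := by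
  intro h1
  have h2 := (ZMod.natCast_eq_zero_iff _ _).2 h
  have h5 : q ^ 3 ≤ (q ^ 3) ^ 2 := Nat.le_self_pow (by norm_num) _
  push_cast [Nat.cast_sub h5] at h2
  have h3 := three_of' (R := ZMod p) (x := (q : ZMod p)) (by linear_combination h2) (cast_ord p q hq h1)
  have h4 : ((3 : ℕ) : ZMod p) = 0 := by exact_mod_cast h3
  rw [ZMod.natCast_eq_zero_iff] at h4
  exact hp3 ((Nat.prime_dvd_prime_iff_eq hp.1 Nat.prime_three).1 h4)

/-- the order modulo a centre of exponent three -/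
theorem dvd_quot {H : Type*} [Group H] [Finite H] (h3 : ∀ ζ ∈ center H, ζ ^ 3 = 1) {p : ℕ} (hp : p.Prime) (hp3 : p ≠ 3)
    (h : p ∣ Nat.card H) : p ∣ Nat.card (H ⧸ center H) := by
  have : Fact p.Prime := ⟨hp⟩
  rw [Subgroup.card_eq_card_quotient_mul_card_subgroup (center H), hp.dvd_mul] at h
  rcases h with h | h
  · exact h
  · exfalso
    obtain ⟨x, hx⟩ := exists_prime_orderOf_dvd_card' p h
    have h4 : orderOf x ∣ 3 := orderOf_dvd_of_pow_eq_one (Subtype.ext (h3 x x.2))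
    rw [hx] at h4
    exact hp3 ((Nat.prime_dvd_prime_iff_eq hp Nat.prime_three).1 h4)

/-! ### the rows -/

section Rows

variable {S : Type*} [Group S] [Finite S] {F : Type*} [Field F] [Fintype F] {L : Type*} [Field L] [Fintype L] {q : ℕ}

theorem card_gt (hq : 1 < q) (hL : Fintype.card L = q ^ 3) : 3 < Fintype.card L := by
  rw [hL]
  have : 2 ^ 3 ≤ q ^ 3 := Nat.pow_le_pow_left hq 3
  omega

/-- **The row `PSL(2,F)`.** -/
theorem row_psl2 (e : S ≃* Matrix.ProjectiveSpecialLinearGroup (Fin 2) F) (hL : 3 < Fintype.card L) {z : S}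
    (hz : orderOf z = 2) (j : SpecialLinearGroup (Fin 2) L →* S) (hj : Function.Injective j) (hjz : j (-1) = z) :
    False := by
  have hz1 : e z ≠ 1 := by
    intro h
    have h1 : z = 1 := e.injective (by rw [h, map_one])
    rw [h1, orderOf_one] at hz
    omega
  have h1 : Group.IsSolvable ↥(centralizer ({e z} : Set (Matrix.ProjectiveSpecialLinearGroup (Fin 2) F))) :=
    Cfsg.Agent.GenExc.isSolvable_centralizer_psl hz1
  have hc : ∀ x, e (j x) ∈ centralizer ({e z} : Set (Matrix.ProjectiveSpecialLinearGroup (Fin 2) F)) := by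
    intro x
    rw [mem_centralizer_singleton_iff, ← hjz, ← map_mul, ← map_mul, ← map_mul, ← map_mul, mul_neg_one, neg_one_mul]
  let f : SpecialLinearGroup (Fin 2) L →* ↥(centralizer ({e z} : Set (Matrix.ProjectiveSpecialLinearGroup (Fin 2) F))) :=
    (e.toMonoidHom.comp j).codRestrict _ hc
  have hf : Function.Injective f := by
    intro x y hxy
    exact hj (e.injective (congrArg Subtype.val hxy))
  have h2 : Group.IsSolvable (SpecialLinearGroup (Fin 2) L) := Group.isSolvable_of_isSolvable_injective hf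
  have h3 := TwoFusion.SLTwoFacts.commutator_eq_top (F := L) hL
  obtain ⟨n, hn⟩ := h2
  have h4 : ∀ n, derivedSeries (SpecialLinearGroup (Fin 2) L) n = ⊤ := by
    intro n
    induction n with
    | zero => rfl
    | succ n ih =>
      rw [derivedSeries_succ, ih, ← _root_.commutator_def, h3]
  rw [h4 n] at hn
  obtain ⟨x, y, hxy⟩ := not_comm_sl (L := L) hL
  apply hxy
  have h5 : x ∈ (⊤ : Subgroup (SpecialLinearGroup (Fin 2) L)) := trivial
  have h6 : y ∈ (⊤ : Subgroup (SpecialLinearGroup (Fin 2) L)) := trivial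
  rw [hn, Subgroup.mem_bot] at h5 h6
  rw [h5, h6]

theorem blk_comm {c : Fin 3} {g : CTFrame.SL3.S3 F} (hg : g ∈ (CTFrame.SL3.Blk c : Subgroup (CTFrame.SL3.S3 F))) :
    g * CTFrame.SL3.dg c = CTFrame.SL3.dg c * g := by
  have h1 : CTFrame.SL3.dg c * g * (CTFrame.SL3.dg c)⁻¹ = g := by
    refine CTFrame.SL3.en_ext fun i k => ?_
    rw [CTFrame.SL3.dg_conj]
    by_cases hi : i = c
    · subst hi
      by_cases hk : k = i
      · subst hk
        rw [if_pos rfl]; ring
      · have := (hg k).2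
        rw [if_neg hk] at this
        rw [this]; ring
    · by_cases hk : k = c
      · subst hk
        have := (hg i).1
        rw [if_neg hi] at this
        rw [this]; ring
      · rw [if_neg hi, if_neg hk]; ring
  rw [mul_inv_eq_iff_eq_mul] at h1
  exact h1.symm

/-- **The row `PSL(3,F)`, `|F|` odd.** -/
theorem row_psl3 (hF : Odd (Fintype.card F)) (e : S ≃* Matrix.ProjectiveSpecialLinearGroup (Fin 3) F) (hq : 1 < q)
    (hL : Fintype.card L = q ^ 3) {z : S} (hz : orderOf z = 2)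
    (j : SpecialLinearGroup (Fin 2) L →* S) (hj : Function.Injective j) (hjz : j (-1) = z)
    (hJ : ∀ g, g * z = z * g → ∀ x, g * j x * g⁻¹ ∈ j.range)
    (hdvd : Nat.card S ∣ q ^ 12 * (q ^ 2 - 1) * (q ^ 6 - 1) * (q ^ 8 + q ^ 4 + 1)) : False := by
  have h2 : (2 : F) ≠ 0 := by
    apply Ring.two_ne_zero
    intro h
    have h4 := (FiniteField.even_card_iff_char_two (F := F)).1 h
    rw [Nat.odd_iff] at hF
    omega
  have hL3 := card_gt hq hL
  have hPf : Finite (CTFrame.SL3.S3 F ⧸ Subgroup.center (CTFrame.SL3.S3 F)) := inferInstance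
  have hzz : z * z = 1 := by rw [← pow_two, ← hz, pow_orderOf_eq_one]
  have hz1 : z ≠ 1 := by
    rintro rfl
    rw [orderOf_one] at hz
    omega
  have h01 : (0 : Fin 3) ≠ 1 := by decide
  have h12 : (1 : Fin 3) ≠ 2 := by decide
  have h02 : (0 : Fin 3) ≠ 2 := by decide
  -- two commuting involutions
  have hpr : ∀ c : Fin 3, LThreeModel.SL3.pr F (CTFrame.SL3.dg c) ≠ 1 := by
    intro c h
    have h3 := LThreeModel.SL3.center_pow (LThreeModel.SL3.pr_eq_one.1 h)
    rw [pow_succ, pow_two, CTFrame.SL3.dg_sq (F := F) c, one_mul] at h3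
    exact CTFrame.SL3.dg_ne h2 c h3
  have hprs : ∀ c : Fin 3, LThreeModel.SL3.pr F (CTFrame.SL3.dg c) * LThreeModel.SL3.pr F (CTFrame.SL3.dg c) = 1 := by
    intro c
    rw [← map_mul, CTFrame.SL3.dg_sq, map_one]
  have hprm : LThreeModel.SL3.pr F (CTFrame.SL3.dg 0) * LThreeModel.SL3.pr F (CTFrame.SL3.dg 1) =
      LThreeModel.SL3.pr F (CTFrame.SL3.dg 2) := by
    rw [← map_mul, CTFrame.SL3.dg_mul h01 h12 h02]
  have hprm' : LThreeModel.SL3.pr F (CTFrame.SL3.dg 1) * LThreeModel.SL3.pr F (CTFrame.SL3.dg 0) =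
      LThreeModel.SL3.pr F (CTFrame.SL3.dg 2) := by
    rw [← map_mul, CTFrame.SL3.dg_mul h01.symm h02 h12]
  obtain ⟨v, hv, hv1, hzv, hcv⟩ := exists_comm_inv (G := CTFrame.SL3.S3 F ⧸ Subgroup.center (CTFrame.SL3.S3 F)) (z := e z)
    (a := LThreeModel.SL3.pr F (CTFrame.SL3.dg 0)) (b := LThreeModel.SL3.pr F (CTFrame.SL3.dg 1))
    (by
      have := congrArg e hzz
      rwa [map_mul, map_one] at this)
    (fun h => hz1 (e.injective (by rw [map_one]; exact h))) (hprs 0) (hpr 0) (hprs 1) (hpr 1)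
    (by
      intro h
      apply hpr 2
      rw [← hprm, h]
      exact hprs 1)
    (by rw [hprm, hprm'])
  obtain ⟨g, hg1, hg2⟩ := LThreeModel.SL3.exists_conj h2 (u := e z) (v := v)
    (by
      have := congrArg e hzz
      rwa [map_mul, map_one] at this)
    hv (fun h => hz1 (e.injective (by rw [map_one]; exact h))) hv1 hzv hcv h02.symm
  obtain ⟨eM⟩ := LThreeModel.SL3.std_equiv (F := F) h01 h12 h02
  have hinj : ∀ x ∈ (CTFrame.SL3.std 0 1 : Subgroup (CTFrame.SL3.S3 F)), ∀ y ∈ (CTFrame.SL3.std 0 1 : Subgroup (CTFrame.SL3.S3 F)),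
      LThreeModel.SL3.pr F x = LThreeModel.SL3.pr F y → x = y := fun x hx y hy h =>
    LThreeModel.SL3.pr_inj h01 h12 h02 hx hy h
  let f : (CTFrame.SL3.std 0 1 : Subgroup (CTFrame.SL3.S3 F)) →* (CTFrame.SL3.S3 F ⧸ Subgroup.center (CTFrame.SL3.S3 F)) :=
    (LThreeModel.SL3.pr F).comp (Subgroup.subtype _)
  have hf : Function.Injective f := fun x y h => Subtype.ext (hinj x x.2 y y.2 h)
  have hrf : f.range = (CTFrame.SL3.std 0 1 : Subgroup (CTFrame.SL3.S3 F)).map (LThreeModel.SL3.pr F) := by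
    rw [MonoidHom.range_comp, Subgroup.range_subtype]
  have hr : Fintype.card F = Fintype.card L := by
    refine key2 (θ := (e : S ≃* (CTFrame.SL3.S3 F ⧸ Subgroup.center (CTFrame.SL3.S3 F))).trans (MulAut.conj g))
      (M := f.range) ((MonoidHom.ofInjective hf).symm.trans eM) (z := z) ?_ ?_ hL3 j hj hjz hJ
    · rintro _ ⟨x, rfl⟩
      change f x * (g * e z * g⁻¹) = g * e z * g⁻¹ * f x
      rw [hg1]
      change LThreeModel.SL3.pr F x * _ = _ * LThreeModel.SL3.pr F x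
      rw [← map_mul, ← map_mul, blk_comm (CTFrame.SL3.std_le_Blk h01 h12 h02 x.2)]
    · intro A hA hAc
      rw [hrf]
      refine LThreeModel.SL3.le_std h01 h12 h02 h2 hA ?_
      change A ≤ centralizer {g * e z * g⁻¹} at hAc
      rwa [hg1] at hAc
  -- arithmetic
  rw [hL] at hr
  have hq3 : 1 ≤ q ^ 3 := Nat.one_le_pow _ _ (by omega)
  have h8 : 8 ≤ q ^ 3 := by
    have : 2 ^ 3 ≤ q ^ 3 := Nat.pow_le_pow_left hq 3
    omega
  obtain ⟨p, hp, hp3, hpN⟩ := exists_prime (N := (q ^ 3) ^ 2 + q ^ 3 + 1) (by nlinarith) (not_nine_dvd_add _)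
  have : Fact p.Prime := ⟨hp⟩
  refine not_dvd_add hp3 (by omega) hpN (dvd_trans ?_ hdvd)
  have h5 : Nat.card S = Nat.card (CTFrame.SL3.S3 F ⧸ Subgroup.center (CTFrame.SL3.S3 F)) := Nat.card_congr e.toEquiv
  rw [h5]
  refine dvd_quot (fun ζ hζ => LThreeModel.SL3.center_pow hζ) hp hp3 (hpN.trans ?_)
  rw [LThreeExt.SL3.card_S3, hr]
  refine Dvd.dvd.mul_left ?_ _
  refine ⟨q ^ 3 - 1, ?_⟩
  obtain ⟨Q, hQ⟩ : ∃ Q, q ^ 3 = Q + 1 := ⟨q ^ 3 - 1, by omega⟩
  rw [hQ, Nat.add_sub_cancel]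
  apply Nat.sub_eq_of_eq_add
  ring

/-- **The row `PSU(3,q₀)`, `q₀` odd.** -/
theorem row_psu3 {q₀ : ℕ} (hF : Fintype.card F = q₀ ^ 2) (hodd : Odd q₀) (e : S ≃* Cfsg.PSU 3 F q₀) (hq : 1 < q)
    (hL : Fintype.card L = q ^ 3) {z : S} (hz : orderOf z = 2)
    (j : SpecialLinearGroup (Fin 2) L →* S) (hj : Function.Injective j) (hjz : j (-1) = z)
    (hJ : ∀ g, g * z = z * g → ∀ x, g * j x * g⁻¹ ∈ j.range)
    (hdvd : Nat.card S ∣ q ^ 12 * (q ^ 2 - 1) * (q ^ 6 - 1) * (q ^ 8 + q ^ 4 + 1)) : False := by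
  have h2 : (2 : F) ≠ 0 := by
    apply Ring.two_ne_zero
    intro h
    have h4 := (FiniteField.even_card_iff_char_two (F := F)).1 h
    rw [hF] at h4
    have h5 : Odd (q₀ ^ 2) := hodd.pow
    rw [Nat.odd_iff] at h5
    omega
  have hL3 := card_gt hq hL
  have hPf : Finite (PSU 3 F q₀) := inferInstance
  have hzz : z * z = 1 := by rw [← pow_two, ← hz, pow_orderOf_eq_one]
  have hz1 : z ≠ 1 := by
    rintro rfl
    rw [orderOf_one] at hz
    omega
  have h01 : (0 : Fin 3) ≠ 1 := by decide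
  have h12 : (1 : Fin 3) ≠ 2 := by decide
  have h02 : (0 : Fin 3) ≠ 2 := by decide
  have hpr : ∀ c : Fin 3, LThreeModel.SU3.pr F q₀ (LThreeModel.SU3.dg hF c) ≠ 1 := by
    intro c h
    have h3 := LThreeModel.SU3.center_pow hF (LThreeModel.SU3.pr_eq_one.1 h)
    rw [pow_succ, pow_two, LThreeModel.SU3.dg_sq hF c, one_mul] at h3
    exact LThreeModel.SU3.dg_ne hF h2 c h3
  have hprs : ∀ c : Fin 3, LThreeModel.SU3.pr F q₀ (LThreeModel.SU3.dg hF c) *
      LThreeModel.SU3.pr F q₀ (LThreeModel.SU3.dg hF c) = 1 := by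
    intro c
    rw [← map_mul, LThreeModel.SU3.dg_sq, map_one]
  have hprm : LThreeModel.SU3.pr F q₀ (LThreeModel.SU3.dg hF 0) * LThreeModel.SU3.pr F q₀ (LThreeModel.SU3.dg hF 1) =
      LThreeModel.SU3.pr F q₀ (LThreeModel.SU3.dg hF 2) := by
    rw [← map_mul, LThreeModel.SU3.dg_mul hF h01 h12 h02]
  have hprm' : LThreeModel.SU3.pr F q₀ (LThreeModel.SU3.dg hF 1) * LThreeModel.SU3.pr F q₀ (LThreeModel.SU3.dg hF 0) =
      LThreeModel.SU3.pr F q₀ (LThreeModel.SU3.dg hF 2) := by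
    rw [← map_mul, LThreeModel.SU3.dg_mul hF h01.symm h02 h12]
  obtain ⟨v, hv, hv1, hzv, hcv⟩ := exists_comm_inv (z := e z)
    (a := LThreeModel.SU3.pr F q₀ (LThreeModel.SU3.dg hF 0)) (b := LThreeModel.SU3.pr F q₀ (LThreeModel.SU3.dg hF 1))
    (by rw [← map_mul, hzz, map_one])
    (fun h => hz1 (e.injective (by rw [map_one]; exact h))) (hprs 0) (hpr 0) (hprs 1) (hpr 1)
    (by
      intro h
      apply hpr 2
      rw [← hprm, h]
      exact hprs 1)
    (by rw [hprm, hprm'])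
  obtain ⟨g, hg1, hg2⟩ := LThreeModel.SU3.exists_conj hF h2 (u := e z) (v := v)
    (by rw [← map_mul, hzz, map_one])
    hv (fun h => hz1 (e.injective (by rw [map_one]; exact h))) hv1 hzv hcv h02.symm
  obtain ⟨eM⟩ := LThreeModel.SU3.std_equiv hF (2 : Fin 3)
  let f : (LThreeExt.SU3.std hF 2) →* PSU 3 F q₀ := (LThreeModel.SU3.pr F q₀).comp (Subgroup.subtype _)
  have hf : Function.Injective f := fun x y h => Subtype.ext (LThreeModel.SU3.pr_inj' hF x.2 y.2 h)
  have hrf : f.range = (LThreeExt.SU3.std hF 2).map (LThreeModel.SU3.pr F q₀) := by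
    rw [MonoidHom.range_comp, Subgroup.range_subtype]
  have : Fintype (Phan.fixedField hF) := Fintype.ofFinite _
  have hr : Fintype.card (Phan.fixedField hF) = Fintype.card L := by
    refine key2 (θ := e.trans (MulAut.conj g)) (M := f.range) ((MonoidHom.ofInjective hf).symm.trans eM) (z := z)
      ?_ ?_ hL3 j hj hjz hJ
    · rintro _ ⟨x, rfl⟩
      change f x * (g * e z * g⁻¹) = g * e z * g⁻¹ * f x
      rw [hg1]
      change LThreeModel.SU3.pr F q₀ x * _ = _ * LThreeModel.SU3.pr F q₀ x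
      rw [← map_mul, ← map_mul]
      congr 1
      apply Subtype.ext
      exact blk_comm (c := 2) (fun i => LThreeModel.SU3.blk_of_mem_std hF x.2 i)
    · intro A hA hAc
      rw [hrf]
      refine LThreeModel.SU3.le_std hF h2 hA ?_
      change A ≤ centralizer {g * e z * g⁻¹} at hAc
      rwa [hg1] at hAc
  rw [← Nat.card_eq_fintype_card, Phan.card_fixedField, hL] at hr
  have hq3 : 1 ≤ q ^ 3 := Nat.one_le_pow _ _ (by omega)
  have h8 : 8 ≤ q ^ 3 := by
    have : 2 ^ 3 ≤ q ^ 3 := Nat.pow_le_pow_left hq 3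
    omega
  obtain ⟨Q, hQ⟩ : ∃ Q, q ^ 3 = Q + 1 := ⟨q ^ 3 - 1, by omega⟩
  have hQ7 : 7 ≤ Q := by omega
  have hN : (q ^ 3) ^ 2 - q ^ 3 + 1 = Q ^ 2 + Q + 1 := by
    rw [hQ]
    have : (Q + 1) ^ 2 = Q ^ 2 + Q + (Q + 1) := by ring
    omega
  obtain ⟨p, hp, hp3, hpN⟩ := exists_prime (N := (q ^ 3) ^ 2 - q ^ 3 + 1) (by rw [hN]; nlinarith)
    (by rw [hN]; exact not_nine_dvd_add _)
  have : Fact p.Prime := ⟨hp⟩
  refine not_dvd_sub hp3 (by omega) hpN (dvd_trans ?_ hdvd)
  have h5 : Nat.card S = Nat.card (SU 3 F q₀ ⧸ Subgroup.center (SU 3 F q₀)) := Nat.card_congr e.toEquiv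
  rw [h5]
  refine dvd_quot (fun ζ hζ => LThreeModel.SU3.center_pow hF hζ) hp hp3 (hpN.trans ?_)
  have h6 := LThreeExt.SU3.card_SU3 hF
  have hr' : (q₀ : ℤ) = (q : ℤ) ^ 3 := by rw [hr]; push_cast; ring
  rw [hr'] at h6
  have h7 : (((q ^ 3) ^ 2 - q ^ 3 + 1 : ℕ) : ℤ) ∣ ((Nat.card (SU 3 F q₀) : ℕ) : ℤ) := by
    rw [h6]
    refine Dvd.dvd.mul_left ?_ _
    refine ⟨1, ?_⟩
    have h9 : q ^ 3 ≤ (q ^ 3) ^ 2 := Nat.le_self_pow (by norm_num) _
    push_cast [Nat.cast_sub h9]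
    ring
  exact_mod_cast h7

end Rows

end Cfsg.Agent.H565.RY
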